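import Cfsg.Agent.H721.FR.Base
import Cfsg.Agent.H705.Indicator
import Cfsg.Agent.CharactersDeep.NormalInd

/-!
# Frobenius-Schur indicators of subgroups of index two

* `indicator_restrict_rev`: if `χ` is irreducible with indicator one, `ψ` a real irreducible character of a
  subgroup and `[χ_H, ψ] = 1` then `ψ` has indicator one.
* `exists_over_index_two`: every irreducible character of a subgroup of index two is a constituent of
  multiplicity one of the restriction of an irreducible character.
* `index_two`, `index_two_hom`: `FSGood False` is inherited by subgroups of index two with real elements.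
-/

set_option autoImplicit false
set_option linter.unusedSectionVars false
set_option linter.style.haveILetI false
set_option linter.unusedVariables false

universe u

namespace Cfsg.Agent.H839.FR

open Cfsg Representation
open Cfsg.Agent.H955.FS
open Cfsg.Agent.Characters.Core
open scoped ComplexConjugate

section rep

variable {G : Type*} [Group G] [Fintype G] {H : Type*} [Group H] [Fintype H]
  {V : Type*} [AddCommGroup V] [Module ℂ V] [FiniteDimensional ℂ V]
  {W : Type*} [AddCommGroup W] [Module ℂ W] [FiniteDimensional ℂ W]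

/-- The sign of an irreducible representation agrees with the sign of a constituent of
multiplicity one of its restriction. -/
theorem sign_restrict_gen (f : H →* G) (ρ : Representation ℂ G V) (σ : Representation ℂ H W)
    [ρ.IsIrreducible] [σ.IsIrreducible]
    (hmult : Module.finrank ℂ (IntertwiningMap (ρ.comp f) σ) = 1)
    (f₀ : IntertwiningMap ρ ρ.dual) (hf₀ : f₀ ≠ 0)
    (B : IntertwiningMap σ σ.dual) (hB : B ≠ 0) (δ : ℂ) (hsymm : ∀ v w, B v w = δ * B w v)
    (i : IntertwiningMap σ (ρ.comp f)) (hi : i ≠ 0) :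
    ∃ v w : V, f₀ v w ≠ 0 ∧ f₀ v w = δ * f₀ w v := by
  have hinj : Function.Injective i := (IsIrreducible.injective_or_eq_zero i).resolve_right hi
  obtain ⟨p, hp⟩ := Cfsg.Agent.H705.Indicator.exists_retraction (ρ.comp f) σ i hinj
  have hf₀b := Cfsg.Agent.S0158.bijective_of_ne_zero ρ f₀ hf₀
  have hBb := Cfsg.Agent.S0158.bijective_of_ne_zero σ B hB
  have hsw : ∀ (g : G) (v w : V), f₀ (ρ g v) (ρ g w) = f₀ v w :=
    fun g v w => Cfsg.Agent.S0158.dual_swap ρ f₀ g v w
  -- the map `v ↦ (w ↦ f₀ v (i w))`
  let q : IntertwiningMap (ρ.comp f) σ.dual :=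
    LinearMap.intertwiningMap_of_isIntertwiningMap (ρ.comp f) σ.dual
      (LinearMap.compl₂ (show V →ₗ[ℂ] V →ₗ[ℂ] ℂ from f₀.toLinearMap) i.toLinearMap) (by
        intro h v
        ext w
        simp only [Representation.dual_apply, Module.Dual.transpose_apply, LinearMap.coe_comp,
          Function.comp_apply, LinearMap.compl₂_apply]
        have h1 := hsw (f h) v (i (σ h⁻¹ w))
        have h2 : i (σ h⁻¹ w) = ρ (f h⁻¹) (i w) := i.isIntertwining σ (ρ.comp f) h⁻¹ w
        have h3 : ρ (f h) (i (σ h⁻¹ w)) = i w := by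
          rw [h2, ← Module.End.mul_apply, ← map_mul, ← map_mul, mul_inv_cancel, map_one, map_one,
            Module.End.one_apply]
        rw [h3] at h1
        exact h1)
  have hq : ∀ v w, q v w = f₀ v (i w) := fun _ _ => rfl
  let e := B.ofBijective hBb
  have hp0 : p ≠ 0 := by
    intro h0
    obtain ⟨w, hw⟩ : ∃ w : W, w ≠ 0 := by
      by_contra hcon
      push Not at hcon
      apply hB
      apply IntertwiningMap.ext
      apply LinearMap.ext
      intro v
      rw [hcon v]
      exact (map_zero B.toLinearMap)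
    have h1 := hp w
    rw [h0] at h1
    exact hw h1.symm
  obtain ⟨c, hc⟩ := (finrank_eq_one_iff_of_nonzero' p hp0).1 hmult (e.symm.toIntertwiningMap.comp q)
  have hqc : ∀ v w, f₀ v (i w) = c * B (p v) w := by
    intro v w
    have h1 : e.symm (q v) = c • p v := by
      have := congrArg (fun k : IntertwiningMap (ρ.comp f) σ => k v) hc
      simpa using this.symm
    have h2 : e (e.symm (q v)) = q v := Representation.Equiv.apply_symm_apply e (q v)
    rw [h1] at h2
    have h3 : e (c • p v) = c • B (p v) := by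
      show B (c • p v) = c • B (p v)
      exact map_smul B c (p v)
    rw [h3] at h2
    rw [← hq v w, ← h2]
    rfl
  obtain ⟨w, w', hww⟩ : ∃ w w' : W, B w w' ≠ 0 := by
    by_contra hcon
    push Not at hcon
    apply hB
    apply IntertwiningMap.ext
    apply LinearMap.ext
    intro v
    apply LinearMap.ext
    intro w
    exact hcon v w
  have hc0 : c ≠ 0 := by
    rintro rfl
    have hw' : w' ≠ 0 := by
      rintro rfl
      exact hww (map_zero (B w))
    have hiw : i w' ≠ 0 := fun h0 => hw' (hinj (by rw [h0]; exact (map_zero i.toLinearMap).symm))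
    refine hiw ((Module.forall_dual_apply_eq_zero_iff ℂ (i w')).1 fun φ => ?_)
    obtain ⟨v, rfl⟩ := hf₀b.2 φ
    rw [hqc, zero_mul]
  refine ⟨i w, i w', ?_, ?_⟩
  · rw [hqc, hp]
    exact mul_ne_zero hc0 hww
  · rw [hqc, hqc, hp, hp, hsymm]
    ring

end rep

section char

variable {G : Type*} [Group G] [Fintype G] {H : Type*} [Group H] [Fintype H]

/-- The space of invariant forms of a real irreducible representation is one dimensional. -/
theorem finrank_dual_of_real {n : ℕ} (ρ : Representation ℂ G (Fin n → ℂ)) [ρ.IsIrreducible]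
    (hreal : ∀ g, (ρ.character g).im = 0) :
    (Module.finrank ℂ (IntertwiningMap ρ ρ.dual) : ℂ) = 1 := by
  haveI : Invertible (Nat.card G : ℂ) := invertibleOfNonzero (by
    exact_mod_cast Nat.card_pos.ne')
  have hinvρ : ∀ g : G, ρ.character g⁻¹ = ρ.character g := by
    intro g
    rw [Cfsg.Agent.S0158.char_inv]
    exact Complex.conj_eq_iff_im.2 (hreal g)
  have hself : (Nat.card G : ℂ)⁻¹ * ∑ g : G, ρ.character g * ρ.character g⁻¹ = 1 := by
    rw [card_inv_mul_sum_char_mul_char_eq_finrank ρ ρ]
    simp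
  rw [← Cfsg.Agent.H705.Indicator.finrank_dual, ← hself]
  simp only [hinvρ]

/-- **Indicators and restriction, from the group to the subgroup.** -/
theorem indicator_restrict_rev (f : H →* G) {χ : G → ℂ} (hχ : IsIrrCharacter G χ)
    (hreal : ∀ g, (χ g).im = 0) {ψ : H → ℂ} (hψ : IsIrrCharacter H ψ)
    (hψreal : ∀ g, (ψ g).im = 0)
    (hν : (Nat.card G : ℂ)⁻¹ * ∑ s : G, χ (s * s) = 1)
    (hmult : classInner (fun h => χ (f h)) ψ = 1) :
    (Nat.card H : ℂ)⁻¹ * ∑ s : H, ψ (s * s) = 1 := by
  classical
  haveI : Invertible (Nat.card G : ℂ) := invertibleOfNonzero (by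
    exact_mod_cast Nat.card_pos.ne')
  haveI : Invertible (Nat.card H : ℂ) := invertibleOfNonzero (by
    exact_mod_cast Nat.card_pos.ne')
  obtain ⟨n, ρ, hρ, rfl⟩ := hχ
  obtain ⟨m, σ, hσ, rfl⟩ := hψ
  obtain ⟨ε, hε, hε1, hε2⟩ := Cfsg.Agent.H705.Indicator.indicator_eq ρ
  obtain ⟨δ, hδ, hδ1, hδ2⟩ := Cfsg.Agent.H705.Indicator.indicator_eq σ
  have hrank := finrank_dual_of_real ρ hreal
  have hrank' := finrank_dual_of_real σ hψreal
  rw [hrank, mul_one, hν] at hε2
  rw [hrank', mul_one] at hδ2
  subst hε2
  obtain ⟨B, hB⟩ := Cfsg.Agent.H705.Indicator.exists_ne_zero (n := m) (ρ := σ) (σ := σ.dual) (by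
    intro h0
    rw [h0] at hrank'
    simp at hrank')
  obtain ⟨f₀, hf₀⟩ := Cfsg.Agent.H705.Indicator.exists_ne_zero (n := n) (ρ := ρ) (σ := ρ.dual) (by
    intro h0
    rw [h0] at hrank
    simp at hrank)
  have hm1 : Module.finrank ℂ (IntertwiningMap σ (ρ.comp f)) = 1 := by
    have h1 := card_inv_mul_sum_char_mul_char_eq_finrank (k := ℂ) σ (ρ.comp f)
    have h2 : (Nat.card H : ℂ)⁻¹ * ∑ g : H, Representation.character (ρ.comp f) g * σ.character g⁻¹ = 1 := by
      rw [← hmult, Cfsg.Agent.H705.Indicator.classInner_eq_sum]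
      congr 1
      refine Finset.sum_congr rfl fun g _ => ?_
      rw [Cfsg.Agent.S0158.char_inv]
      rfl
    rw [h2] at h1
    exact_mod_cast h1.symm
  have hm2 : Module.finrank ℂ (IntertwiningMap (ρ.comp f) σ) = 1 := by
    have h1 := card_inv_mul_sum_char_mul_char_eq_finrank (k := ℂ) (ρ.comp f) σ
    have h2 : (Nat.card H : ℂ)⁻¹ * ∑ g : H, σ.character g * Representation.character (ρ.comp f) g⁻¹ = 1 := by
      rw [← map_one (starRingEnd ℂ), ← hmult, Cfsg.Agent.H705.Indicator.classInner_eq_sum, map_mul, map_inv₀,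
        Complex.conj_natCast, map_sum]
      congr 1
      refine Finset.sum_congr rfl fun g _ => ?_
      rw [Cfsg.Agent.S0158.char_inv, map_mul, Complex.conj_conj, mul_comm]
      rfl
    rw [h2] at h1
    exact_mod_cast h1.symm
  obtain ⟨i, hi⟩ := Cfsg.Agent.H705.Indicator.exists_ne_zero (n := m) (ρ := σ) (σ := ρ.comp f)
    (by rw [hm1]; norm_num)
  obtain ⟨v, w, hvw, hs⟩ := sign_restrict_gen f ρ σ hm2 f₀ hf₀ B hB δ (hδ1 B) i hi
  rw [hδ2]
  rcases hδ with h | h
  · exact h
  · exfalso
    have h1 := hε1 f₀ v w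
    rw [one_mul] at h1
    rw [h, ← h1] at hs
    apply hvw
    linear_combination hs / 2

end char

/-- Every irreducible character of a subgroup of index two is a constituent of multiplicity one of the
restriction of an irreducible character. -/
theorem exists_over_index_two {G : Type*} [Group G] [Fintype G] (N : Subgroup G) [Fintype N]
    (hN : N.index = 2) {ψ : N → ℂ} (hψ : IsIrrCharacter N ψ) :
    ∃ χ : G → ℂ, IsIrrCharacter G χ ∧ classInner (fun n : N => χ n) ψ = 1 := by
  classical
  obtain ⟨χ, hχ, hne⟩ : ∃ χ : G → ℂ, IsIrrCharacter G χ ∧ classInner (indFun N ψ) χ ≠ 0 := by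
    by_contra hcon
    push Not at hcon
    have h0 := classFunction_eq_zero (CharactersDeep.NormalInd.indFun_isClassFunction N ψ) hcon
    have h1 := CharactersDeep.NormalInd.indFun_one N ψ
    rw [h0, hN] at h1
    have h2 := isIrr_apply_one_ne_zero hψ
    apply h2
    have h3 : (0 : ℂ) = 2 * ψ 1 := by exact_mod_cast h1
    linear_combination -h3 / 2
  rw [CharactersDeep.NormalInd.classInner_indFun N ψ χ (isIrr_isClassFunction hχ)] at hne
  refine ⟨χ, hχ, ?_⟩
  have hres : IsCharacter N (fun n : N => χ n) := isCharacter_comp N.subtype (isIrr_isCharacter hχ)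
  obtain ⟨m, hm⟩ := classInner_isNat hres (isIrr_isCharacter hψ)
  have hm0 : m ≠ 0 := by
    rintro rfl
    apply hne
    rw [← classInner_conj_symm, hm]
    simp
  have hm' : classInner ψ (fun n : N => χ n) = m := by
    rw [← classInner_conj_symm, hm]
    simp
  -- Bessel
  have hB : ((m : ℝ) ^ 2 : ℝ) ≤ ((Nat.card N : ℝ)⁻¹ * ∑ n : N, Complex.normSq (χ n) : ℝ) := by
    have h1 := classInner_self_eq_ofReal (fun n : N => χ n)
    have h2 := classInner_self_eq_ofReal ((fun n : N => χ n) - (m : ℂ) • ψ)
    rw [classInner_sub_left, classInner_sub_right, classInner_sub_right, classInner_smul_left,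
      classInner_smul_right, classInner_smul_left, classInner_smul_right, classInner_irr_self hψ, hm, hm',
      h1] at h2
    rw [Complex.conj_natCast] at h2
    have h3 : ((Nat.card N : ℝ)⁻¹ * ∑ n : N, Complex.normSq (χ n) : ℝ) - (m : ℝ) ^ 2 =
        ((Nat.card N : ℝ)⁻¹ * ∑ g : N, Complex.normSq (((fun n : N => χ n) - (m : ℂ) • ψ) g) : ℝ) := by
      apply Complex.ofReal_injective
      rw [← h2]
      push_cast
      ring
    have h4 : (0 : ℝ) ≤ ((Nat.card N : ℝ)⁻¹ *
        ∑ g : N, Complex.normSq (((fun n : N => χ n) - (m : ℂ) • ψ) g) : ℝ) :=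
      mul_nonneg (inv_nonneg.2 (Nat.cast_nonneg _)) (Finset.sum_nonneg fun g _ => Complex.normSq_nonneg _)
    linarith
  have hG : ((Nat.card G : ℝ)⁻¹ * ∑ g : G, Complex.normSq (χ g) : ℝ) = 1 := by
    apply Complex.ofReal_injective
    rw [← classInner_self_eq_ofReal, classInner_irr_self hχ]
    simp
  have hle : ∑ n : N, Complex.normSq (χ n) ≤ ∑ g : G, Complex.normSq (χ g) := by
    rw [← Finset.sum_subtype (Finset.univ.filter (fun g : G => g ∈ N)) (p := fun g : G => g ∈ N)
      (fun x => by simp) (fun g : G => Complex.normSq (χ g))]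
    exact Finset.sum_le_sum_of_subset_of_nonneg (Finset.filter_subset _ _)
      fun g _ _ => Complex.normSq_nonneg _
  have hcard : (Nat.card G : ℝ) = Nat.card N * 2 := by
    rw [← Subgroup.card_mul_index N, hN]
    push_cast
    ring
  have hNpos : (0 : ℝ) < Nat.card N := by exact_mod_cast Nat.card_pos
  have hGsum : ∑ g : G, Complex.normSq (χ g) = Nat.card N * 2 := by
    rw [hcard] at hG
    field_simp at hG
    linarith
  have h2 : (m : ℝ) ^ 2 ≤ 2 := by
    refine hB.trans ?_
    rw [inv_mul_le_iff₀ hNpos]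
    linarith
  have h3 : m ^ 2 ≤ 2 := by exact_mod_cast h2
  have h4 : m = 1 := by
    have : m < 2 := by nlinarith
    omega
  rw [hm, h4, Nat.cast_one]

/-- **Subgroups of index two.** -/
theorem index_two {G : Type u} [Group G] [Finite G] (N : Subgroup G)
    (hN : N.index = 2) (h : FSGood False G) (hr : ∀ g : N, IsConj g g⁻¹) : FSGood False N := by
  classical
  have := Fintype.ofFinite G
  have := Fintype.ofFinite N
  intro ψ hψ
  left
  obtain ⟨χ, hχ, hm⟩ := exists_over_index_two N hN hψ
  have hν : fsi χ = 1 := by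
    rcases h χ hχ with h1 | h1
    · exact h1
    · exact h1.1.elim
  have hreal := real_of_fsi_ne_zero hχ (by rw [hν]; exact one_ne_zero)
  rw [fsi_eq_sum] at hν ⊢
  exact indicator_restrict_rev N.subtype hχ hreal hψ (im_eq_zero_of_isConj_inv hψ hr) hν hm

/-- **Subgroups of index two**, for an injective homomorphism. -/
theorem index_two_hom {G H : Type u} [Group G] [Finite G] [Group H]
    (f : H →* G) (hf : Function.Injective f) (hN : f.range.index = 2) (h : FSGood False G)
    (hr : ∀ g : H, IsConj g g⁻¹) : FSGood False H := by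
  let e : H ≃* f.range := MonoidHom.ofInjective hf
  refine (index_two f.range hN h fun g => ?_).of_mulEquiv e.symm
  obtain ⟨x, hx⟩ := isConj_iff.1 (hr (e.symm g))
  refine isConj_iff.2 ⟨e x, e.symm.injective ?_⟩
  simpa using hx

end Cfsg.Agent.H839.FR
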